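import Mathlib
import Cfsg.Agent.H346.DP.ChevNode
import Cfsg.Agent.H622.Levi.Chain
import Cfsg.Agent.H892.EP.Good

/-!
# S4929: `Good` for the Levi factors of type `A`

* `ker_sq` : the kernels of the rank one homomorphisms `s i` have exponent dividing `2`;
* `good_singleton` : `Good p r SL₂(F i) → Good p r MJ {i}` (`p ≠ 2`);
* `good_chain` : `Good p r SL_{m+1}(F) → Good p r MJ (range k)` for a chain `k` of `m ≥ 2` nodes with root groups of
  order `|F|`, `p ∤ |F| - 1`;
* `good_node` : the same for one node of such a chain (`m = 1`).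
-/

set_option autoImplicit false
set_option linter.unusedSectionVars false

namespace Cfsg.Agent.H346.EP

open CoxeterSystem Cfsg.Agent.ChevalleyStructure.CoxeterGeom Cfsg.Agent.Tits.Roots Cfsg.Agent.Tits.Core
  Cfsg.Agent.Tits.RootComb Cfsg.Agent.Nodes.Comb Cfsg.Agent.Nodes.Reps
  Cfsg.Agent.Nodes.BNOf Cfsg.Agent.Nodes.StabComb
  Cfsg.Agent.Nodes.RGDLib Cfsg.Agent.Nodes.Bruhat Cfsg.Agent.Nodes.OppDec
open Cfsg.Agent.OddHalf.NI.Mult (Coord rp_nn up lo nn dg)
open Cfsg.Agent.H53.HC (MJ)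
open Cfsg.Agent.LieRecognition.BNCox (cA)
open Cfsg.Agent.H892.EP
open Matrix

section sl

variable {K : Type*} [Field K]

/-- `SL n` of isomorphic fields -/
def slEquiv {K' : Type*} [Field K'] (n : ℕ) (e : K ≃+* K') :
    Matrix.SpecialLinearGroup (Fin n) K ≃* Matrix.SpecialLinearGroup (Fin n) K' where
  toFun := Matrix.SpecialLinearGroup.map e.toRingHom
  invFun := Matrix.SpecialLinearGroup.map e.symm.toRingHom
  left_inv g := by
    apply Subtype.ext
    ext i j
    exact e.symm_apply_apply _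
  right_inv g := by
    apply Subtype.ext
    ext i j
    exact e.apply_symm_apply _
  map_mul' g g' := map_mul _ g g'

theorem not_dvd_center [Fintype K] {n p : ℕ} (hp : p.Prime) (hd : ¬ p ∣ Fintype.card K - 1) :
    ¬ p ∣ Nat.card (Subgroup.center (Matrix.SpecialLinearGroup (Fin n) K)) := by
  intro h1
  have : Fact p.Prime := ⟨hp⟩
  obtain ⟨z, hz⟩ := exists_prime_orderOf_dvd_card' (G := Subgroup.center (Matrix.SpecialLinearGroup (Fin n) K)) p h1
  apply hd
  rw [← hz]
  apply orderOf_dvd_of_pow_eq_one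
  apply Subtype.ext
  apply Subtype.ext
  obtain ⟨c, -, hc⟩ := Matrix.SpecialLinearGroup.mem_center_iff.1 z.2
  rw [Subgroup.coe_pow, Matrix.SpecialLinearGroup.coe_pow, ← hc]
  rcases n with _ | n
  · ext i
    exact i.elim0
  · have hc0 : c ≠ 0 := by
      rintro rfl
      have h2 := (z : Matrix.SpecialLinearGroup (Fin (n + 1)) K).2
      rw [← hc, map_zero, det_zero] at h2
      exact zero_ne_one h2
    rw [← map_pow, FiniteField.pow_card_sub_one_eq_one c hc0, map_one]
    rfl

/-- the matrices with a nonzero lower left entry -/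
theorem exists_up_nn {g : Matrix.SpecialLinearGroup (Fin 2) K} (hg : (g : Matrix (Fin 2) (Fin 2) K) 1 0 ≠ 0) :
    ∃ x y : K, ∃ u : Kˣ, g = up x * nn u * up y := by
  have hdet := g.2
  rw [det_fin_two] at hdet
  obtain ⟨a, ha⟩ : ∃ a, a = (g : Matrix (Fin 2) (Fin 2) K) 0 0 := ⟨_, rfl⟩
  obtain ⟨b, hb⟩ : ∃ b, b = (g : Matrix (Fin 2) (Fin 2) K) 0 1 := ⟨_, rfl⟩
  obtain ⟨c, hc⟩ : ∃ c, c = (g : Matrix (Fin 2) (Fin 2) K) 1 0 := ⟨_, rfl⟩
  obtain ⟨d, hd⟩ : ∃ d, d = (g : Matrix (Fin 2) (Fin 2) K) 1 1 := ⟨_, rfl⟩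
  rw [← ha, ← hb, ← hc, ← hd] at hdet
  rw [← hc] at hg
  refine ⟨a / c, d / c, -(Units.mk0 c hg)⁻¹, ?_⟩
  apply Subtype.ext
  rw [Matrix.SpecialLinearGroup.coe_mul, Matrix.SpecialLinearGroup.coe_mul, eta_fin_two (g : Matrix (Fin 2) (Fin 2) K),
    ← ha, ← hb, ← hc, ← hd, OddHalf.NI.Mult.coe_up, OddHalf.NI.Mult.coe_up, OddHalf.NI.Mult.coe_nn, mul_fin_two,
    mul_fin_two]
  ext i j
  fin_cases i <;> fin_cases j
  · simp
    field_simp
  · simp
    field_simp
    linear_combination -hdet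
  · simp
  · simp
    field_simp

end sl

section coord

variable {I W Y : Type*} [Fintype I] [DecidableEq I] [Group W] [Group Y] {M : CoxeterMatrix I}
  {cs : CoxeterSystem M W} {A : I → I → ℤ} {h : IsCartan M A} {r : ℕ} {T : Subgroup Y} {n : I → Y}
  {X : (I → ℤ) → Subgroup Y}
  {F : I → Type*} [∀ i, Field (F i)] {s : ∀ i, Matrix.SpecialLinearGroup (Fin 2) (F i) →* Y}

/-- the elements of the kernel are lower triangular -/
theorem ker_low [Finite W] (R : RGD cs h r T n X) (C : Coord X F s) {i : I} {g : Matrix.SpecialLinearGroup (Fin 2) (F i)}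
    (hg : s i g = 1) : (g : Matrix (Fin 2) (Fin 2) (F i)) 1 0 = 0 := by
  by_contra hcon
  obtain ⟨x, y, u, rfl⟩ := exists_up_nn hcon
  rw [map_mul, map_mul] at hg
  have h1 : s i (nn u) = (s i (up x))⁻¹ * (s i (up y))⁻¹ := by
    calc s i (nn u) = (s i (up x))⁻¹ * (s i (up x) * s i (nn u) * s i (up y)) * (s i (up y))⁻¹ := by group
      _ = _ := by rw [hg, mul_one]
  have hX : ∀ t, s i (up t) ∈ RGD.B cs h T X := fun t =>
    RGD.X_le_B (isRoot_sr cs h i) (sr_nonneg i) (C.mem_up i t)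
  have h2 : s i (nn u) ∈ RGD.B cs h T X := by
    rw [h1]
    exact mul_mem (inv_mem (hX x)) (inv_mem (hX y))
  have h3 := R.eq_one_of_mem_B (OddHalf.NI.Mult.rp_nn R C i u) h2
  have h4 := cs.length_simple i
  rw [h3, cs.length_one] at h4
  exact zero_ne_one h4

/-- the elements of the kernel are upper triangular -/
theorem ker_up [Finite W] (R : RGD cs h r T n X) (C : Coord X F s) {i : I} {g : Matrix.SpecialLinearGroup (Fin 2) (F i)}
    (hg : s i g = 1) : (g : Matrix (Fin 2) (Fin 2) (F i)) 0 1 = 0 := by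
  have h1 : s i (nn 1 * g * (nn 1)⁻¹) = 1 := by
    rw [map_mul, map_mul, hg, mul_one, map_inv, mul_inv_cancel]
  have h2 := ker_low R C h1
  rw [Matrix.SpecialLinearGroup.coe_mul, Matrix.SpecialLinearGroup.coe_mul, Matrix.SpecialLinearGroup.coe_inv,
    eta_fin_two (g : Matrix (Fin 2) (Fin 2) (F i)), OddHalf.NI.Mult.coe_nn, adjugate_fin_two, mul_fin_two,
    mul_fin_two] at h2
  simpa using h2

/-- **The kernel of `s i`.** -/
theorem ker_sq [Finite W] (R : RGD cs h r T n X) (C : Coord X F s) {i : I} {g : Matrix.SpecialLinearGroup (Fin 2) (F i)}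
    (hg : s i g = 1) : g ^ 2 = 1 := by
  have hl := ker_low R C hg
  have hu := ker_up R C hg
  have h1 : s i (g * up 1 * g⁻¹ * (up 1)⁻¹) = 1 := by
    rw [map_mul, map_mul, map_mul, hg, one_mul, map_inv, hg, map_inv, inv_one, mul_one, mul_inv_cancel]
  have h2 := ker_up R C h1
  have hdet := g.2
  rw [det_fin_two] at hdet
  obtain ⟨a, ha⟩ : ∃ a, a = (g : Matrix (Fin 2) (Fin 2) (F i)) 0 0 := ⟨_, rfl⟩
  obtain ⟨d, hd⟩ : ∃ d, d = (g : Matrix (Fin 2) (Fin 2) (F i)) 1 1 := ⟨_, rfl⟩
  rw [← ha, ← hd, hu, zero_mul, sub_zero] at hdet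
  have he : (g : Matrix (Fin 2) (Fin 2) (F i)) = !![a, 0; 0, d] := by
    rw [eta_fin_two (g : Matrix (Fin 2) (Fin 2) (F i)), hl, hu, ← ha, ← hd]
  rw [Matrix.SpecialLinearGroup.coe_mul, Matrix.SpecialLinearGroup.coe_mul, Matrix.SpecialLinearGroup.coe_mul,
    Matrix.SpecialLinearGroup.coe_inv, Matrix.SpecialLinearGroup.coe_inv, he, OddHalf.NI.Mult.coe_up, adjugate_fin_two,
    adjugate_fin_two, mul_fin_two, mul_fin_two, mul_fin_two] at h2
  simp at h2
  have h3 : a * a = 1 := by linear_combination hdet + h2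
  have h4 : d * d = 1 := by
    calc d * d = (a * a) * (d * d) := by rw [h3, one_mul]
      _ = (a * d) * (a * d) := by ring
      _ = 1 := by rw [hdet, one_mul]
  apply Subtype.ext
  rw [Matrix.SpecialLinearGroup.coe_pow, he, pow_two, mul_fin_two, Matrix.SpecialLinearGroup.coe_one, one_fin_two, h3, h4]
  simp

theorem not_dvd_ker [Finite W] (R : RGD cs h r T n X) (C : Coord X F s) (i : I) [Finite (F i)] {p : ℕ}
    (hp : p.Prime) (hp2 : p ≠ 2) : ¬ p ∣ Nat.card (s i).ker := by
  intro hd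
  have : Fact p.Prime := ⟨hp⟩
  obtain ⟨z, hz⟩ := exists_prime_orderOf_dvd_card' (G := (s i).ker) p hd
  have h1 : z ^ 2 = 1 := Subtype.ext (ker_sq R C z.2)
  have h2 := orderOf_dvd_of_pow_eq_one h1
  rw [hz] at h2
  exact hp2 ((Nat.prime_dvd_prime_iff_eq hp Nat.prime_two).1 h2)

end coord

section good

variable {I W Y : Type*} [Fintype I] [DecidableEq I] [Group W] [Group Y] {M : CoxeterMatrix I}
  {cs : CoxeterSystem M W} {A : I → I → ℤ} {h : IsCartan M A} {r : ℕ} {T : Subgroup Y} {n : I → Y}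
  {X : (I → ℤ) → Subgroup Y} {p : ℕ} [Fact p.Prime] [Fact r.Prime]

/-- the image of a homomorphism with kernel of order prime to `p` -/
theorem good_range {L G : Type*} [Group L] [Finite L] [Group G] [Finite G] (φ : L →* G)
    (hk : ¬ p ∣ Nat.card φ.ker) (hL : Good p r L) {H : Subgroup G} (hH : φ.range = H) : Good p r ↥H := by
  subst hH
  exact Good.quot φ.rangeRestrict φ.rangeRestrict_surjective (by rwa [MonoidHom.ker_rangeRestrict]) hL

/-- **One node.** -/
theorem good_singleton [Finite W] [Finite Y] {F : I → Type*} [∀ i, Field (F i)]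
    {s : ∀ i, Matrix.SpecialLinearGroup (Fin 2) (F i) →* Y} (R : RGD cs h r T n X) (C : Coord X F s) (i : I)
    [Finite (F i)] (hp2 : p ≠ 2) (hg : Good p r (Matrix.SpecialLinearGroup (Fin 2) (F i))) : Good p r ↥(MJ cs h X {i}) := by
  refine good_range (s i) (not_dvd_ker R C i Fact.out hp2) hg ?_
  rw [DP.MJ_singleton]
  exact le_antisymm (C.range_le_KK i) (C.KK_le_range i)

/-- the order of the root groups of a chain -/
theorem card_of_co {m : ℕ} {k : Fin (m + 1) ↪ I} {F' : Type} [Field F'] [Fintype F']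
    {φ : Matrix.SpecialLinearGroup (Fin (m + 1 + 1)) F' →* Y} (C : H622.Levi.Co X k F' φ) :
    Nat.card (X (sr (k 0))) = Fintype.card F' := by
  have h01 : (0 : Fin (m + 1)).castSucc ≠ (0 : Fin (m + 1)).succ := (Fin.castSucc_lt_succ).ne
  have h1 : (X (sr (k 0)) : Set Y) =
      Set.range fun t => φ (Matrix.SpecialLinearGroup.transvection h01 t) := by
    rw [← H622.Levi.cr_succ k 0]
    exact C.root _ _ h01
  rw [← Nat.card_eq_fintype_card]
  have h2 : Nat.card (X (sr (k 0))) = Nat.card (X (sr (k 0)) : Set Y) := rfl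
  rw [h2, h1]
  refine Nat.card_range_of_injective fun a b hab => ?_
  have h3 : Matrix.SpecialLinearGroup.transvection h01 (a - b) ∈ φ.ker := by
    have h4 : Matrix.SpecialLinearGroup.transvection h01 a = Matrix.SpecialLinearGroup.transvection h01 (a - b) *
        Matrix.SpecialLinearGroup.transvection h01 b := by
      rw [← Matrix.SpecialLinearGroup.transvection_add, sub_add_cancel]
    have h5 : φ (Matrix.SpecialLinearGroup.transvection h01 a) = φ (Matrix.SpecialLinearGroup.transvection h01 b) := hab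
    rw [h4, map_mul] at h5
    exact mul_eq_right.1 h5
  have h4 := (Matrix.SpecialLinearGroup.transvection_mem_center_iff h01 (a - b)).1 (C.ker h3)
  exact sub_eq_zero.1 h4

/-- **Chains of length at least two.** -/
theorem good_chain [Finite W] [Finite Y] {F : Type} [Field F] [Fintype F] (R : RGD cs h r T n X) {m : ℕ} (hm : 2 ≤ m)
    (k : Fin m ↪ I) (hk : ∀ i j, M (k i) (k j) = cA m i j)
    (hcard : ∀ j, Nat.card (X (sr (k j))) = Fintype.card F) (hp : ¬ p ∣ Fintype.card F - 1)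
    (hg : Good p r (Matrix.SpecialLinearGroup (Fin (m + 1)) F)) : Good p r ↥(MJ cs h X (Set.range k)) := by
  obtain ⟨F', i1, i2, φ, C⟩ := H622.Levi.exists_co R hm k hk
  have hcF : Fintype.card F = Fintype.card F' := by
    obtain ⟨m', rfl⟩ : ∃ m', m = m' + 1 := ⟨m - 1, by omega⟩
    rw [← card_of_co C, hcard]
  have e : F ≃+* F' := FiniteField.ringEquivOfCardEq hcF
  refine good_range φ (fun hd => ?_) (hg.congr (slEquiv (m + 1) e)) (C.range (cs := cs) (h := h) hk (by omega))
  rw [hcF] at hp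
  exact not_dvd_center Fact.out hp (hd.trans (Subgroup.card_dvd_of_le C.ker))

/-- **A node joined to another one by a simple bond.** -/
theorem good_node [Finite W] [Finite Y] {F : Type} [Field F] [Fintype F] (R : RGD cs h r T n X) {i j : I}
    (hij : M i j = 3) (hcard : Nat.card (X (sr i)) = Fintype.card F) (hp : ¬ p ∣ Fintype.card F - 1)
    (hg : Good p r (Matrix.SpecialLinearGroup (Fin 2) F)) : Good p r ↥(MJ cs h X {i}) := by
  obtain ⟨F', i1, i2, φ, C⟩ := H622.Levi.exists_co_one R i j hij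
  let k : Fin 1 ↪ I := ⟨fun _ => i, fun _ _ _ => Subsingleton.elim _ _⟩
  have hk : ∀ a b, M (k a) (k b) = cA 1 a b := by
    intro a b
    rw [Subsingleton.elim a b, M.diagonal, (cA 1).diagonal]
  have C' : H622.Levi.Co X k F' φ := C
  have hcF : Fintype.card F = Fintype.card F' := by
    rw [← card_of_co (m := 0) (k := k) C', ← hcard]
    rfl
  have e : F ≃+* F' := FiniteField.ringEquivOfCardEq hcF
  refine good_range φ (fun hd => ?_) (hg.congr (slEquiv 2 e)) ?_
  · rw [hcF] at hp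
    exact not_dvd_center Fact.out hp (hd.trans (Subgroup.card_dvd_of_le C.ker))
  · rw [C'.range (cs := cs) (h := h) hk one_pos]
    congr 1
    ext x
    exact ⟨fun ⟨_, hx⟩ => hx.symm, fun hx => ⟨0, hx.symm⟩⟩

end good

end Cfsg.Agent.H346.EP
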