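import Mathlib
import Cfsg.Agent.H346.EP.Chain
import Cfsg.Agent.H537.EP.OfMJ
import Cfsg.Agent.Nodes.KindE
import Cfsg.Agent.Cit.TypeDet.KindsEF

/-!
# S4929: `Good` for `G₂(q)`, `F₄(q)`, `E₆(q)`, `E₇(q)`, `E₈(q)`
-/

set_option autoImplicit false
set_option linter.unusedSectionVars false

namespace Cfsg.Agent.H346.EP

open CoxeterSystem Cfsg.Agent.ChevalleyStructure.CoxeterGeom Cfsg.Agent.Tits.Roots Cfsg.Agent.Tits.Core
  Cfsg.Agent.Tits.RootComb Cfsg.Agent.Nodes.Comb Cfsg.Agent.Nodes.Reps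
  Cfsg.Agent.Nodes.BNOf Cfsg.Agent.Nodes.StabComb
  Cfsg.Agent.Nodes.RGDLib Cfsg.Agent.Nodes.Bruhat Cfsg.Agent.Nodes.OppDec
open Cfsg.Agent.OddHalf.NI.Mult (Coord up lo nn dg)
open Cfsg.Agent.H53.HC (MJ)
open Cfsg.Agent.LieRecognition.BNCox (cA)
open Cfsg.Agent.H892.EP
open Cfsg.Agent.H537.EP (good_of_MJ)
open Cfsg.Lie Cfsg.Agent.ChevalleyStructure Cfsg.Agent.ChevalleyStructure.Elts
  Cfsg.Agent.ChevalleyStructure.CoxeterGeomTypes Cfsg.Agent.Nodes.RGDChev Cfsg.Agent.KFacts.RgdChevCoord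
open Cfsg.Agent.OddHalf.NI.ModelChev (sl)
open Matrix

section

variable {D : ChevalleyDatum} {l : ℕ} {M : CoxeterMatrix (Fin l)} (hp : IsType D l M) {F : Type} [Field F]
  [Fintype F] {r : ℕ} [Fact r.Prime] [CharP F r] {p : ℕ} [Fact p.Prime]

include hp

/-- the order of a root group -/
theorem card_XX (r : ℕ) [Fact r.Prime] [CharP F r] (i : Fin l) : Nat.card (XX D l F (sr i)) = Fintype.card F := by
  have := finite_W hp M.toCoxeterSystem
  have h2 : Nat.card (XX D l F (sr i)) = Nat.card (XX D l F (sr i) : Set ↥(D.group F)) := rfl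
  rw [h2, (H162.GaussExc.coord hp (K := F)).up i, ← Nat.card_eq_fintype_card]
  refine Nat.card_range_of_injective fun a b hab => ?_
  have h3 : sl hp (K := F) i (up (a - b)) = 1 := by
    have h4 : sl hp (K := F) i (up a) = sl hp (K := F) i (up b) := hab
    rw [sub_eq_add_neg, OddHalf.NI.Mult.up_add, map_mul, OddHalf.NI.Mult.up_neg, map_inv, h4, mul_inv_cancel]
  have h4 := ker_up (rgd (K := F) hp M.toCoxeterSystem r) (H162.GaussExc.coord hp) h3
  rw [OddHalf.NI.Mult.coe_up] at h4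
  exact sub_eq_zero.1 h4

/-- **Chains of nodes.** -/
theorem good_chev_chain (hpd : ¬ p ∣ Fintype.card F - 1) {N d : ℕ} (hN : 2 ≤ N) (k : Fin N ↪ Fin l)
    (hk : ∀ i j, M (k i) (k j) = cA N i j) (hd : 2 ≤ d) (hdN : d ≤ N + 1)
    (hg : Good p r (Matrix.SpecialLinearGroup (Fin d) F)) : Good p r ↥(D.group F) := by
  have := finite_W hp M.toCoxeterSystem
  rcases Nat.eq_or_lt_of_le hd with rfl | hd3
  · have h01 : M (k ⟨0, by omega⟩) (k ⟨1, by omega⟩) = 3 := by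
      rw [hk]
      rfl
    exact good_of_MJ (rgd (K := F) hp M.toCoxeterSystem r) (G1_eq_top hp _) _
      (good_node (rgd (K := F) hp M.toCoxeterSystem r) h01 (card_XX hp r _) hpd hg)
  · obtain ⟨m, rfl⟩ : ∃ m, d = m + 1 := ⟨d - 1, by omega⟩
    exact good_of_MJ (rgd (K := F) hp M.toCoxeterSystem r) (G1_eq_top hp _) _
      (good_chain (rgd (K := F) hp M.toCoxeterSystem r) (m := m) (by omega)
        ((Fin.castLEEmb (show m ≤ N by omega)).trans k) (fun i j => (hk _ _).trans rfl) (fun j => card_XX hp r _) hpd hg)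

/-- **One node.** -/
theorem good_chev_one (hp2 : p ≠ 2) (i : Fin l) (hg : Good p r (Matrix.SpecialLinearGroup (Fin 2) F)) :
    Good p r ↥(D.group F) := by
  have := finite_W hp M.toCoxeterSystem
  exact good_of_MJ (rgd (K := F) hp M.toCoxeterSystem r) (G1_eq_top hp _) _
    (good_singleton (rgd (K := F) hp M.toCoxeterSystem r) (H162.GaussExc.coord hp) i hp2 hg)

end

/-! ### The chains -/

def k4 : Fin 2 ↪ Fin 4 := ⟨![0, 1], by decide⟩

def k6 : Fin 5 ↪ Fin 6 := ⟨![0, 2, 3, 4, 5], by decide⟩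

def k7 : Fin 6 ↪ Fin 7 := ⟨![0, 2, 3, 4, 5, 6], by decide⟩

def k8 : Fin 7 ↪ Fin 8 := ⟨![0, 2, 3, 4, 5, 6, 7], by decide⟩

set_option backward.isDefEq.respectTransparency false in
theorem hk4 : ∀ i j, CoxeterMatrix.F₄ (k4 i) (k4 j) = cA 2 i j := by decide +kernel

set_option backward.isDefEq.respectTransparency false in
theorem hk6 : ∀ i j, CoxeterMatrix.E₆ (k6 i) (k6 j) = cA 5 i j := by decide +kernel

set_option backward.isDefEq.respectTransparency false in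
theorem hk7 : ∀ i j, CoxeterMatrix.E₇ (k7 i) (k7 j) = cA 6 i j := by decide +kernel

set_option backward.isDefEq.respectTransparency false in
theorem hk8 : ∀ i j, CoxeterMatrix.E₈ (k8 i) (k8 j) = cA 7 i j := by decide +kernel

section

variable {F : Type} [Field F] [Fintype F] {r : ℕ} [Fact r.Prime] [CharP F r] {p : ℕ} [Fact p.Prime]

/-- **`G₂(q)`.** -/
theorem good_g2 (hp2 : p ≠ 2) (h : Good p r (SpecialLinearGroup (Fin 2) F)) : Good p r ↥(Lie.chevG2.group F) :=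
  good_chev_one Cit.TypeDet.KindsEF.isTypeG hp2 0 h

/-- **`F₄(q)`.** -/
theorem good_f4 (hp : ¬ p ∣ Fintype.card F - 1) {d : ℕ} (hd : d = 2 ∨ d = 3)
    (h : Good p r (SpecialLinearGroup (Fin d) F)) : Good p r ↥(Lie.chevF4.group F) :=
  good_chev_chain (by simp [IsType, typeList]) hp le_rfl k4 hk4 (by omega) (by omega) h

/-- **`E₆(q)`.** -/
theorem good_e6 (hp : ¬ p ∣ Fintype.card F - 1) {d : ℕ} (hd : 2 ≤ d) (hd6 : d ≤ 6)
    (h : Good p r (SpecialLinearGroup (Fin d) F)) : Good p r ↥(Lie.chevE6.group F) :=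
  good_chev_chain Nodes.KindE.isType6 hp (by norm_num) k6 hk6 hd hd6 h

/-- **`E₇(q)`.** -/
theorem good_e7 (hp : ¬ p ∣ Fintype.card F - 1) {d : ℕ} (hd : 2 ≤ d) (hd6 : d ≤ 7)
    (h : Good p r (SpecialLinearGroup (Fin d) F)) : Good p r ↥(Lie.chevE7.group F) :=
  good_chev_chain Nodes.KindE.isType7 hp (by norm_num) k7 hk7 hd hd6 h

/-- **`E₈(q)`.** -/
theorem good_e8 (hp : ¬ p ∣ Fintype.card F - 1) {d : ℕ} (hd : 2 ≤ d) (hd6 : d ≤ 8)
    (h : Good p r (SpecialLinearGroup (Fin d) F)) : Good p r ↥(Lie.chevE8.group F) :=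
  good_chev_chain Nodes.KindE.isType8 hp (by norm_num) k8 hk8 hd hd6 h

end

end Cfsg.Agent.H346.EP
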